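import Cfsg.Agent.H284.EP.Basic
import Cfsg.Prelude.Def_GeometricClasses

/-!
# S5745, row `Ω₇(3)`: the abstract step (helper948)
-/

set_option autoImplicit false
set_option linter.unusedSectionVars false

namespace Cfsg.Agent.H948.EPX

open Cfsg.Agent.H284

variable {G A : Type*} [Group G] [Group A]

theorem abs_step {H : Subgroup G}
    (hEP : ∀ x ∉ H, ∀ L : Subgroup G, H ⊓ cj x H ≤ L → L ≤ H → L = H ⊓ cj x H ∨ L = H)
    {Om : Subgroup A} (ρ : H →* A) (hρ : Function.Injective ρ) (hr : ρ.range = Om) {yA : A} {y : H} (hy : ρ y = yA)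
    (hmax : ∀ M : Subgroup A, Cfsg.Geo.IsMaximalIn Om M → yA ∈ M → ∃ z ∈ M, z * yA = yA * z ∧ z ∉ Subgroup.zpowers yA)
    (hmax0 : ∃ z ∈ Om, z * yA = yA * z ∧ z ∉ Subgroup.zpowers yA)
    {x : G} (hxy : x * (y : G) = (y : G) * x)
    (hM : ∀ g ∈ H, x⁻¹ * g * x ∈ H → g * (y : G) = (y : G) * g → g ∈ Subgroup.zpowers (y : G)) : False := by
  -- transport of the centraliser condition
  have key : ∀ g : H, (g : G) ∈ cj x H → ρ g * yA = yA * ρ g → ρ g ∈ Subgroup.zpowers yA := by
    intro g hg hc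
    have h1 : g * y = y * g := by
      apply hρ
      rw [map_mul, map_mul, hy, hc]
    obtain ⟨n, hn⟩ := hM g g.2 (mem_cj.1 hg) (congrArg Subtype.val h1)
    refine ⟨n, ?_⟩
    have h2 : y ^ n = g := Subtype.ext (by
      rw [Subgroup.coe_zpow]
      exact hn)
    change yA ^ n = ρ g
    rw [← h2, map_zpow, hy]
  have hmem : ∀ a ∈ Om, ∃ g : H, ρ g = a := by
    intro a ha
    rw [← hr] at ha
    exact ha
  obtain ⟨z0, hz0, hz0c, hz0n⟩ := hmax0
  obtain ⟨g0, hg0⟩ := hmem z0 hz0
  have hg0n : (g0 : G) ∉ cj x H := by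
    intro h
    apply hz0n
    rw [← hg0]
    apply key g0 h
    rw [hg0]
    exact hz0c
  have hxH : x ∉ H := by
    intro hx
    apply hg0n
    rw [mem_cj]
    exact H.mul_mem (H.mul_mem (H.inv_mem hx) g0.2) hx
  let M0 : Subgroup H := (cj x H).subgroupOf H
  let M : Subgroup A := M0.map ρ
  have hMmem : ∀ g : H, ρ g ∈ M ↔ (g : G) ∈ cj x H := by
    intro g
    constructor
    · rintro ⟨g', hg', he⟩
      have := hρ he
      subst this
      exact hg'
    · intro h
      exact ⟨g, h, rfl⟩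
  have hMle : M ≤ Om := by
    rintro _ ⟨g, -, rfl⟩
    rw [← hr]
    exact ⟨g, rfl⟩
  have hMax : Cfsg.Geo.IsMaximalIn Om M := by
    refine ⟨lt_of_le_of_ne hMle fun he => ?_, fun L hL1 hL2 => ?_⟩
    · apply hg0n
      rw [← hMmem, he, hg0]
      exact hz0
    · let L0 : Subgroup G := (L.comap ρ).map H.subtype
      have hL0 : ∀ g : H, (g : G) ∈ L0 ↔ ρ g ∈ L := by
        intro g
        constructor
        · rintro ⟨g', hg', he⟩
          have : g' = g := Subtype.ext he
          subst this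
          exact hg'
        · intro h
          exact ⟨g, h, rfl⟩
      have h1 : H ⊓ cj x H ≤ L0 := by
        rintro g ⟨hg, hg'⟩
        rw [hL0 ⟨g, hg⟩]
        exact hL1 ((hMmem ⟨g, hg⟩).2 hg')
      have h2 : L0 ≤ H := by
        rintro _ ⟨g, -, rfl⟩
        exact g.2
      rcases hEP x hxH L0 h1 h2 with h | h
      · left
        apply le_antisymm _ hL1
        intro a ha
        obtain ⟨g, rfl⟩ := hmem a (hL2 ha)
        rw [hMmem]
        have := (hL0 g).2 ha
        rw [h] at this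
        exact this.2
      · right
        apply le_antisymm hL2
        intro a ha
        obtain ⟨g, rfl⟩ := hmem a ha
        rw [← hL0, h]
        exact g.2
  have hyM : yA ∈ M := by
    rw [← hy, hMmem, mem_cj]
    have : x⁻¹ * (y : G) * x = y := by rw [mul_assoc, ← hxy, ← mul_assoc, inv_mul_cancel, one_mul]
    rw [this]
    exact y.2
  obtain ⟨z, hz, hzc, hzn⟩ := hmax M hMax hyM
  obtain ⟨g, rfl⟩ := hmem z (hMle hz)
  exact hzn (key g ((hMmem g).1 hz) hzc)

end Cfsg.Agent.H948.EPX
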