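import Cfsg.Agent.H932.Spinor
import Cfsg.Agent.LieClassical.OrthForms

/-!
# S5745, row `Ω₇(3)`: an element of order five of `Ω₇(3)` in coordinates (helper948)
-/

set_option autoImplicit false
set_option linter.unusedSectionVars false
set_option maxRecDepth 100000

namespace Cfsg.Agent.H948.EPX.Om7

open QuadraticMap Matrix
open Cfsg.Agent.ClassicalGeometry.Reflection Cfsg.Agent.ClassicalGeometry.SpinorSign
open Cfsg.Agent.LieClassical.OrthCore Cfsg.Agent.LieClassical.OrthForms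
open Cfsg.Agent.H932.Spinor

abbrev R := ZMod 3
abbrev I := Unit ⊕ (Fin 3 ⊕ Fin 3)
abbrev V := I → R
abbrev q0 : V → R := Cfsg.quadFormOdd 3 R
noncomputable abbrev Q : QuadraticForm R V := oddForm 3 R
noncomputable abbrev Iso := Cfsg.isometryGroup R ⇑Q

instance : Fact (Nat.Prime 3) := ⟨Nat.prime_three⟩

theorem two_ne : (2 : R) ≠ 0 := by decide

theorem Qq : (⇑Q : V → R) = q0 := coe_oddForm 3 R

theorem hQ : (QuadraticMap.polarBilin Q).Nondegenerate := by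
  exact ⟨fun x hx => nondeg_oddForm 3 R two_ne x hx,
    fun x hx => nondeg_oddForm 3 R two_ne x fun y => by rw [polar_comm]; exact hx y⟩

theorem h3 : (3 : R) = 0 := by decide
theorem h4 : (4 : R) = 1 := by decide
theorem h5 : (5 : R) = 2 := by decide
theorem h6 : (6 : R) = 0 := by decide
theorem h7 : (7 : R) = 1 := by decide
theorem h8 : (8 : R) = 2 := by decide
theorem h9 : (9 : R) = 0 := by decide

local macro "r3" : tactic => `(tactic| (rw [← sub_eq_zero]; ring_nf; try simp only [h3, h6, h9, mul_zero, neg_zero, add_zero, zero_add, sub_zero]))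

def mk7 (a b c d e f g : R) : V := Sum.elim (fun _ => a) (Sum.elim ![b, c, d] ![e, f, g])

def mk (u : Fin 3 → R) (c : Fin 4 → R) : V :=
  mk7 (2 * c 1 + 2 * c 2 + 2 * c 3) (2 * c 1) (u 0 + c 0) (u 1) (c 0 + 2 * c 3) (2 * u 0 + c 0) (u 2)

def cu (x : V) : Fin 3 → R := ![2 * x (.inr (.inl 1)) + x (.inr (.inr 1)), x (.inr (.inl 2)), x (.inr (.inr 2))]

def cc (x : V) : Fin 4 → R := ![2 * x (.inr (.inl 1)) + 2 * x (.inr (.inr 1)), 2 * x (.inr (.inl 0)),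
      2 * x (.inl ()) + x (.inr (.inl 0)) + x (.inr (.inl 1)) + x (.inr (.inr 0)) + x (.inr (.inr 1)),
      2 * x (.inr (.inl 1)) + 2 * x (.inr (.inr 0)) + 2 * x (.inr (.inr 1))]

theorem mk_cc (x : V) : mk (cu x) (cc x) = x := by
  funext i
  rcases i with i | i | i
  · simp [mk, mk7, cu, cc]
    r3
  · fin_cases i <;> simp [mk, mk7, cu, cc] <;> r3
  · fin_cases i <;> simp [mk, mk7, cu, cc] <;> r3

theorem mk_surj (x : V) : ∃ u c, x = mk u c := ⟨cu x, cc x, (mk_cc x).symm⟩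

theorem cu_mk (u : Fin 3 → R) (c : Fin 4 → R) : cu (mk u c) = u := by
  funext i
  fin_cases i <;> simp [mk, mk7, cu] <;> r3

theorem cc_mk (u : Fin 3 → R) (c : Fin 4 → R) : cc (mk u c) = c := by
  funext i
  fin_cases i <;> simp [mk, mk7, cc] <;> r3

theorem mk_inj {u u' : Fin 3 → R} {c c' : Fin 4 → R} (h : mk u c = mk u' c') : u = u' ∧ c = c' := by
  constructor
  · rw [← cu_mk u c, h, cu_mk]
  · rw [← cc_mk u c, h, cc_mk]

theorem mk_add (u u' : Fin 3 → R) (c c' : Fin 4 → R) : mk (u + u') (c + c') = mk u c + mk u' c' := by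
  funext i
  rcases i with i | i | i
  · simp [mk, mk7]; ring
  · fin_cases i <;> simp [mk, mk7] <;> ring
  · fin_cases i <;> simp [mk, mk7] <;> ring

theorem mk_smul (a : R) (u : Fin 3 → R) (c : Fin 4 → R) : mk (a • u) (a • c) = a • mk u c := by
  funext i
  rcases i with i | i | i
  · simp [mk, mk7]; ring
  · fin_cases i <;> simp [mk, mk7] <;> ring
  · fin_cases i <;> simp [mk, mk7] <;> ring

theorem mk_zero : mk 0 0 = 0 := by
  have := mk_smul 0 0 0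
  simpa using this

theorem mk_neg (u : Fin 3 → R) (c : Fin 4 → R) : mk (-u) (-c) = -mk u c := by
  have := mk_smul (-1) u c
  simpa using this

def d1 : V := mk7 0 0 1 0 0 2 0
def dX : V := mk7 0 0 0 1 0 0 0
def dZ : V := mk7 0 0 0 0 0 0 1
def F0 : V := mk7 0 0 1 0 1 1 0
def F1 : V := mk7 2 2 0 0 0 0 0
def F2 : V := mk7 2 0 0 0 0 0 0
def F3 : V := mk7 2 0 0 0 2 0 0
def F4 : V := mk7 0 1 2 0 0 2 0

theorem mk_eq (u : Fin 3 → R) (c : Fin 4 → R) :
    mk u c = u 0 • d1 + u 1 • dX + u 2 • dZ + c 0 • F0 + c 1 • F1 + c 2 • F2 + c 3 • F3 := by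
  funext i
  rcases i with i | i | i
  · simp [mk, mk7, d1, dX, dZ, F0, F1, F2, F3]; r3
  · fin_cases i <;> simp [mk, mk7, d1, dX, dZ, F0, F1, F2, F3] <;> r3
  · fin_cases i <;> simp [mk, mk7, d1, dX, dZ, F0, F1, F2, F3] <;> r3

/-! ### Reflections -/

theorem refl_step {a x y : V} {c : R} (ha : Q a ≠ 0) (hc : q0 a * c = 1) (h : y = x - (c * polar q0 a x) • a) :
    ac (reflIso Q a ha) x = y := by
  rw [ac_reflIso, h, Qq]
  have : (q0 a)⁻¹ = c := inv_eq_of_mul_eq_one_right hc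
  rw [this]

def A1 : V := mk7 1 2 0 0 0 0 0
def A2 : V := mk7 1 2 2 0 1 2 0
def A3 : V := mk7 1 2 0 0 2 0 0
def A4 : V := mk7 1 1 2 0 0 2 0

theorem ne_of {a : V} {c : R} (h : q0 a * c = 1) : Q a ≠ 0 := by
  rw [Qq]
  intro h0
  rw [h0, zero_mul] at h
  exact absurd h (by decide)

theorem hA1 : q0 A1 * 1 = 1 := by decide
theorem hA2 : q0 A2 * 1 = 1 := by decide
theorem hA3 : q0 A3 * 2 = 1 := by decide
theorem hA4 : q0 A4 * 2 = 1 := by decide

/-- the element of order five -/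
noncomputable def Y : Iso := reflIso Q A4 (ne_of hA4) * reflIso Q A3 (ne_of hA3) * reflIso Q A2 (ne_of hA2) *
  reflIso Q A1 (ne_of hA1)

theorem step4 {x x1 x2 x3 x4 : V} (h1 : x1 = x - (1 * polar q0 A1 x) • A1) (h2 : x2 = x1 - (1 * polar q0 A2 x1) • A2)
    (h3 : x3 = x2 - (2 * polar q0 A3 x2) • A3) (h4 : x4 = x3 - (2 * polar q0 A4 x3) • A4) : ac Y x = x4 := by
  rw [Y, ac_mul, ac_mul, ac_mul, refl_step (ne_of hA1) hA1 h1, refl_step (ne_of hA2) hA2 h2,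
    refl_step (ne_of hA3) hA3 h3, refl_step (ne_of hA4) hA4 h4]

theorem Y_d1 : ac Y d1 = d1 := step4 (x1 := d1) (x2 := d1) (x3 := d1) (by decide) (by decide) (by decide) (by decide)

theorem Y_dX : ac Y dX = dX := step4 (x1 := dX) (x2 := dX) (x3 := dX) (by decide) (by decide) (by decide) (by decide)
theorem Y_dZ : ac Y dZ = dZ := step4 (x1 := dZ) (x2 := dZ) (x3 := dZ) (by decide) (by decide) (by decide) (by decide)
theorem Y_F0 : ac Y F0 = F1 :=
  step4 (x1 := mk7 1 2 1 0 1 1 0) (x2 := mk7 0 0 2 0 0 2 0) (x3 := mk7 0 0 2 0 0 2 0) (by decide) (by decide) (by decide) (by decide)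
theorem Y_F1 : ac Y F1 = F2 :=
  step4 (x1 := mk7 1 0 0 0 0 0 0) (x2 := mk7 2 2 2 0 1 2 0) (x3 := mk7 0 1 2 0 0 2 0) (by decide) (by decide) (by decide) (by decide)
theorem Y_F2 : ac Y F2 = F3 :=
  step4 (x1 := mk7 1 1 0 0 0 0 0) (x2 := mk7 1 1 0 0 0 0 0) (x3 := mk7 2 0 0 0 2 0 0) (by decide) (by decide) (by decide) (by decide)
theorem Y_F3 : ac Y F3 = F4 :=
  step4 (x1 := mk7 0 2 0 0 2 0 0) (x2 := mk7 0 2 0 0 2 0 0) (x3 := mk7 2 0 0 0 0 0 0) (by decide) (by decide) (by decide) (by decide)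

def sh (c : Fin 4 → R) : Fin 4 → R := ![-c 3, c 0 - c 3, c 1 - c 3, c 2 - c 3]

theorem Y_mk (u : Fin 3 → R) (c : Fin 4 → R) : ac Y (mk u c) = mk u (sh c) := by
  rw [mk_eq, mk_eq]
  simp only [ac_add, ac_smul, Y_d1, Y_dX, Y_dZ, Y_F0, Y_F1, Y_F2, Y_F3]
  funext i
  rcases i with i | i | i
  · simp [sh, mk7, d1, dX, dZ, F0, F1, F2, F3, F4]; r3
  · fin_cases i <;> simp [sh, mk7, d1, dX, dZ, F0, F1, F2, F3, F4] <;> r3
  · fin_cases i <;> simp [sh, mk7, d1, dX, dZ, F0, F1, F2, F3, F4] <;> r3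

theorem sh5 (c : Fin 4 → R) : sh (sh (sh (sh (sh c)))) = c := by
  funext i
  fin_cases i <;> simp [sh] <;> ring

theorem shsum (c : Fin 4 → R) : c + sh c + sh (sh c) + sh (sh (sh c)) + sh (sh (sh (sh c))) = 0 := by
  funext i
  fin_cases i <;> simp only [sh, Pi.add_apply, Pi.zero_apply, Fin.zero_eta, Fin.mk_one, Fin.reduceFinMk,
    Matrix.cons_val_zero, Matrix.cons_val_one, Matrix.cons_val] <;> ring

theorem Y5 : Y ^ 5 = 1 := by
  apply isometryGroup_ext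
  intro x
  obtain ⟨u, c, rfl⟩ := mk_surj x
  have h : Y ^ 5 = Y * (Y * (Y * (Y * Y))) := by simp only [pow_succ, pow_zero, one_mul, mul_assoc]
  change ac (Y ^ 5) _ = ac 1 _
  rw [h, ac_mul, ac_mul, ac_mul, ac_mul, Y_mk, Y_mk, Y_mk, Y_mk, Y_mk, sh5]
  simp [ac]

/-! ### The form -/

def qE (c : Fin 4 → R) : R := c 0 ^ 2 + 2 * c 0 * c 1 + c 1 * c 3 + (c 1 + c 2 + c 3) ^ 2

def bE (c c' : Fin 4 → R) : R := 2 * c 0 * c' 0 + 2 * (c 0 * c' 1 + c 1 * c' 0) + (c 1 * c' 3 + c 3 * c' 1)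
  + 2 * (c 1 + c 2 + c 3) * (c' 1 + c' 2 + c' 3)

theorem q_mk (u : Fin 3 → R) (c : Fin 4 → R) : q0 (mk u c) = - u 0 ^ 2 + u 1 * u 2 + qE c := by
  simp only [q0, Cfsg.quadFormOdd, mk, mk7, qE, Sum.elim_inl, Sum.elim_inr, Fin.sum_univ_three,
    Matrix.cons_val_zero, Matrix.cons_val_one, Matrix.cons_val]
  linear_combination (u 0 ^ 2 + u 0 * c 0 + (c 1 + c 2 + c 3) ^ 2 + c 1 * c 3) * h3

theorem polar_mk (u u' : Fin 3 → R) (c c' : Fin 4 → R) :
    polar q0 (mk u c) (mk u' c') = u 0 * u' 0 + u 1 * u' 2 + u 2 * u' 1 + bE c c' := by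
  rw [polar, ← mk_add, q_mk, q_mk, q_mk]
  simp only [qE, bE, Pi.add_apply]
  linear_combination (-(u 0 * u' 0)) * h3

end Cfsg.Agent.H948.EPX.Om7
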