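import Cfsg.Agent.H948.EPX.Om7A

/-!
# S5745, row `Ω₇(3)`: the centraliser of the element of order five (helper948)
-/

set_option autoImplicit false
set_option linter.unusedSectionVars false
set_option maxRecDepth 100000

namespace Cfsg.Agent.H948.EPX.Om7

open QuadraticMap Matrix
open Cfsg.Agent.ClassicalGeometry.Reflection Cfsg.Agent.ClassicalGeometry.SpinorSign
open Cfsg.Agent.LieClassical.OrthCore Cfsg.Agent.LieClassical.OrthForms
open Cfsg.Agent.H932.Spinor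

theorem ac_one (x : V) : ac (1 : Iso) x = x := by simp [ac]

theorem ac_inv (k : Iso) (x : V) : ac k⁻¹ (ac k x) = x := by rw [← ac_mul, inv_mul_cancel, ac_one]

theorem ac_neg (k : Iso) (x : V) : ac k (-x) = -ac k x := by
  have := ac_smul k (-1) x
  simpa using this

theorem ac_zero (k : Iso) : ac k 0 = 0 := by
  have := ac_smul k 0 0
  simpa using this

theorem iso_ext {g h : Iso} (hh : ∀ x, ac g x = ac h x) : g = h := isometryGroup_ext _ _ _ hh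

theorem q_ac (k : Iso) (x : V) : q0 (ac k x) = q0 x := by
  rw [← Qq]
  exact (mem_isometryGroup_iff _ _).1 k.2 x

theorem polar_ac' (k : Iso) (x y : V) : polar q0 (ac k x) (ac k y) = polar q0 x y := by
  rw [← Qq]
  exact polar_ac Q k x y

theorem comm_ac {k : Iso} (hk : k * Y = Y * k) (x : V) : ac k (ac Y x) = ac Y (ac k x) := by
  rw [← ac_mul, hk, ac_mul]

theorem Y_u (u : Fin 3 → R) : ac Y (mk u 0) = mk u 0 := by
  rw [Y_mk]
  congr 1
  funext i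
  fin_cases i <;> simp [sh]

theorem of_sh {c : Fin 4 → R} (h : sh c = c) : c = 0 := by
  have h0 := congrFun h 0
  have h1 := congrFun h 1
  have h2 := congrFun h 2
  have h3 := congrFun h 3
  simp only [sh, Matrix.cons_val_zero, Matrix.cons_val_one, Matrix.cons_val] at h0 h1 h2 h3
  have key : ∀ a b c d : R, -d = a → a - d = b → b - d = c → c - d = d → a = 0 ∧ b = 0 ∧ c = 0 ∧ d = 0 := by decide
  obtain ⟨e0, e1, e2, e3⟩ := key _ _ _ _ h0 h1 h2 h3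
  funext i
  fin_cases i
  · exact e0
  · exact e1
  · exact e2
  · exact e3

theorem mem_U_of {x : V} (h : ac Y x = x) : ∃ u, x = mk u 0 := by
  obtain ⟨u, c, rfl⟩ := mk_surj x
  rw [Y_mk] at h
  obtain ⟨-, h⟩ := mk_inj h
  rw [of_sh h]
  exact ⟨u, rfl⟩

theorem k_U {k : Iso} (hk : k * Y = Y * k) (u : Fin 3 → R) : ∃ u', ac k (mk u 0) = mk u' 0 := by
  apply mem_U_of
  rw [← comm_ac hk, Y_u]

/-- the norm -/
theorem nm (u : Fin 3 → R) (c : Fin 4 → R) : mk u c + ac Y (mk u c) + ac Y (ac Y (mk u c)) + ac Y (ac Y (ac Y (mk u c)))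
    + ac Y (ac Y (ac Y (ac Y (mk u c)))) = mk (-u) 0 := by
  rw [Y_mk, Y_mk, Y_mk, Y_mk, ← mk_add, ← mk_add, ← mk_add, ← mk_add, shsum]
  congr 1
  funext i
  simp only [Pi.add_apply, Pi.neg_apply]
  linear_combination (2 * u i) * h3

theorem k_E {k : Iso} (hk : k * Y = Y * k) (c : Fin 4 → R) : ∃ c', ac k (mk 0 c) = mk 0 c' := by
  obtain ⟨u', c', h⟩ := mk_surj (ac k (mk 0 c))
  have h1 := nm u' c'
  rw [← h] at h1
  simp only [← comm_ac hk] at h1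
  rw [← ac_add, ← ac_add, ← ac_add, ← ac_add, nm, neg_zero, mk_zero, ac_zero, ← mk_zero] at h1
  have h2 := (mk_inj h1).1
  have h4 : u' = 0 := neg_eq_zero.1 h2.symm
  rw [h, h4]
  exact ⟨c', rfl⟩

def c0 : Fin 4 → R := ![1, 0, 0, 0]
def c1 : Fin 4 → R := ![0, 1, 0, 0]
def c2 : Fin 4 → R := ![0, 0, 1, 0]
def c3 : Fin 4 → R := ![0, 0, 0, 1]
def c4 : Fin 4 → R := ![-1, -1, -1, -1]

theorem sh0 : sh c0 = c1 := by decide
theorem sh1 : sh c1 = c2 := by decide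
theorem sh2 : sh c2 = c3 := by decide
theorem sh3 : sh c3 = c4 := by decide

theorem c_list (c : Fin 4 → R) (h1 : qE c = 1) (h2 : bE c (sh c) = 2) :
    c = c0 ∨ c = c1 ∨ c = c2 ∨ c = c3 ∨ c = c4 ∨ c = -c0 ∨ c = -c1 ∨ c = -c2 ∨ c = -c3 ∨ c = -c4 := by
  have key : ∀ a0 a1 a2 a3 : R, qE ![a0, a1, a2, a3] = 1 → bE ![a0, a1, a2, a3] (sh ![a0, a1, a2, a3]) = 2 →
      ![a0, a1, a2, a3] = c0 ∨ ![a0, a1, a2, a3] = c1 ∨ ![a0, a1, a2, a3] = c2 ∨ ![a0, a1, a2, a3] = c3 ∨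
      ![a0, a1, a2, a3] = c4 ∨ ![a0, a1, a2, a3] = -c0 ∨ ![a0, a1, a2, a3] = -c1 ∨ ![a0, a1, a2, a3] = -c2 ∨
      ![a0, a1, a2, a3] = -c3 ∨ ![a0, a1, a2, a3] = -c4 := by decide
  have hc : c = ![c 0, c 1, c 2, c 3] := by
    funext i
    fin_cases i <;> rfl
  rw [hc] at h1 h2 ⊢
  exact key _ _ _ _ h1 h2

theorem F0_eq : F0 = mk 0 c0 := by decide

theorem pow_c0 (i : ℕ) : ac (Y ^ (i + 1)) (mk 0 c0) = ac Y (ac (Y ^ i) (mk 0 c0)) := by
  rw [pow_succ', ac_mul]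

theorem p0 : ac (Y ^ 0) (mk 0 c0) = mk 0 c0 := by rw [pow_zero, ac_one]
theorem p1 : ac (Y ^ 1) (mk 0 c0) = mk 0 c1 := by rw [pow_c0, p0, Y_mk, sh0]
theorem p2 : ac (Y ^ 2) (mk 0 c0) = mk 0 c2 := by rw [pow_c0, p1, Y_mk, sh1]
theorem p3 : ac (Y ^ 3) (mk 0 c0) = mk 0 c3 := by rw [pow_c0, p2, Y_mk, sh2]
theorem p4 : ac (Y ^ 4) (mk 0 c0) = mk 0 c4 := by rw [pow_c0, p3, Y_mk, sh3]

theorem neg_mk0 (c : Fin 4 → R) : mk 0 (-c) = (-1 : R) • mk 0 c := by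
  rw [← mk_smul, smul_zero, neg_one_smul]

theorem k_c0 {k : Iso} (hk : k * Y = Y * k) : ∃ (i : ℕ) (ε : R), (ε = 1 ∨ ε = -1) ∧
    ac k (mk 0 c0) = ε • ac (Y ^ i) (mk 0 c0) := by
  obtain ⟨c', h⟩ := k_E hk c0
  have h1 : qE c' = 1 := by
    have := q_ac k (mk 0 c0)
    rw [h, q_mk, q_mk] at this
    have e : qE c0 = 1 := by decide
    rw [e] at this
    simpa using this
  have h2 : bE c' (sh c') = 2 := by
    have := polar_ac' k (mk 0 c0) (ac Y (mk 0 c0))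
    rw [comm_ac hk, h, Y_mk, Y_mk, polar_mk, polar_mk] at this
    have e : bE c0 (sh c0) = 2 := by decide
    rw [e] at this
    simpa using this
  rw [h]
  rcases c_list c' h1 h2 with rfl | rfl | rfl | rfl | rfl | rfl | rfl | rfl | rfl | rfl
  · exact ⟨0, 1, Or.inl rfl, by rw [p0, one_smul]⟩
  · exact ⟨1, 1, Or.inl rfl, by rw [p1, one_smul]⟩
  · exact ⟨2, 1, Or.inl rfl, by rw [p2, one_smul]⟩
  · exact ⟨3, 1, Or.inl rfl, by rw [p3, one_smul]⟩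
  · exact ⟨4, 1, Or.inl rfl, by rw [p4, one_smul]⟩
  · exact ⟨0, -1, Or.inr rfl, by rw [p0, neg_mk0]⟩
  · exact ⟨1, -1, Or.inr rfl, by rw [p1, neg_mk0]⟩
  · exact ⟨2, -1, Or.inr rfl, by rw [p2, neg_mk0]⟩
  · exact ⟨3, -1, Or.inr rfl, by rw [p3, neg_mk0]⟩
  · exact ⟨4, -1, Or.inr rfl, by rw [p4, neg_mk0]⟩

theorem k_form {k : Iso} (hk : k * Y = Y * k) : ∃ (i : ℕ) (ε : R), (ε = 1 ∨ ε = -1) ∧
    ∀ c, ac ((Y ^ i)⁻¹ * k) (mk 0 c) = ε • mk 0 c := by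
  obtain ⟨i, ε, hε, h⟩ := k_c0 hk
  refine ⟨i, ε, hε, fun c => ?_⟩
  set z := (Y ^ i)⁻¹ * k with hz
  have hzY : z * Y = Y * z := by
    have h1 : (Y ^ i)⁻¹ * Y = Y * (Y ^ i)⁻¹ := by
      rw [inv_mul_eq_iff_eq_mul, ← mul_assoc, eq_mul_inv_iff_mul_eq, ← pow_succ, ← pow_succ']
    rw [hz, mul_assoc, hk, ← mul_assoc, h1, mul_assoc]
  have e0 : ac z F0 = ε • F0 := by
    rw [F0_eq, hz, ac_mul, h, ac_smul, ac_inv]
  have e1 : ac z F1 = ε • F1 := by rw [← Y_F0, comm_ac hzY, e0, ac_smul]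
  have e2 : ac z F2 = ε • F2 := by rw [← Y_F1, comm_ac hzY, e1, ac_smul]
  have e3 : ac z F3 = ε • F3 := by rw [← Y_F2, comm_ac hzY, e2, ac_smul]
  rw [mk_eq]
  simp only [ac_add, ac_smul, e0, e1, e2, e3, Pi.zero_apply, zero_smul, ac_zero, zero_add]
  simp only [smul_add, smul_smul, mul_comm ε]

theorem pow_u (i : ℕ) (u : Fin 3 → R) : ac (Y ^ i) (mk u 0) = mk u 0 := by
  induction i with
  | zero => rw [pow_zero, ac_one]
  | succ n ih => rw [pow_succ, ac_mul, Y_u, ih]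

theorem pow_inv_u (i : ℕ) (u : Fin 3 → R) : ac (Y ^ i)⁻¹ (mk u 0) = mk u 0 := by
  nth_rewrite 1 [← pow_u i u]
  rw [ac_inv]

/-! ### The involution `-1` on `E` -/

def B1 : V := mk7 1 0 0 0 0 0 0
def B2 : V := mk7 0 0 1 0 0 1 0
def B3 : V := mk7 0 1 0 0 1 0 0
def B4 : V := mk7 0 1 0 0 2 0 0
theorem hB1 : q0 B1 * 1 = 1 := by decide
theorem hB2 : q0 B2 * 1 = 1 := by decide
theorem hB3 : q0 B3 * 1 = 1 := by decide
theorem hB4 : q0 B4 * 2 = 1 := by decide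

noncomputable def tt : Iso := reflIso Q B4 (ne_of hB4) * reflIso Q B3 (ne_of hB3) * reflIso Q B2 (ne_of hB2) *
  reflIso Q B1 (ne_of hB1)

theorem stepB {x x1 x2 x3 x4 : V} (h1 : x1 = x - (1 * polar q0 B1 x) • B1) (h2 : x2 = x1 - (1 * polar q0 B2 x1) • B2)
    (h3 : x3 = x2 - (1 * polar q0 B3 x2) • B3) (h4 : x4 = x3 - (2 * polar q0 B4 x3) • B4) : ac tt x = x4 := by
  rw [tt, ac_mul, ac_mul, ac_mul, refl_step (ne_of hB1) hB1 h1, refl_step (ne_of hB2) hB2 h2,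
    refl_step (ne_of hB3) hB3 h3, refl_step (ne_of hB4) hB4 h4]

theorem t_d1 : ac tt d1 = d1 := stepB (x1 := d1) (x2 := d1) (x3 := d1) (by decide) (by decide) (by decide) (by decide)
theorem t_dX : ac tt dX = dX := stepB (x1 := dX) (x2 := dX) (x3 := dX) (by decide) (by decide) (by decide) (by decide)
theorem t_dZ : ac tt dZ = dZ := stepB (x1 := dZ) (x2 := dZ) (x3 := dZ) (by decide) (by decide) (by decide) (by decide)
theorem t_F0 : ac tt F0 = -F0 := stepB rfl rfl rfl (by decide)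
theorem t_F1 : ac tt F1 = -F1 := stepB rfl rfl rfl (by decide)
theorem t_F2 : ac tt F2 = -F2 := stepB rfl rfl rfl (by decide)
theorem t_F3 : ac tt F3 = -F3 := stepB rfl rfl rfl (by decide)

theorem t_mk (u : Fin 3 → R) (c : Fin 4 → R) : ac tt (mk u c) = mk u (-c) := by
  rw [mk_eq, mk_eq]
  simp only [ac_add, ac_smul, t_d1, t_dX, t_dZ, t_F0, t_F1, t_F2, t_F3, Pi.neg_apply, smul_neg, neg_smul]

theorem s_of {a : V} {c : R} (h : q0 a * c = 1) (hsq : IsSquare (q0 a)) : spinorSign (⇑Q) 1 (reflIso Q a (ne_of h)) = -1 := by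
  rw [spinorSign_reflIso two_ne Q one_ne_zero, if_pos]
  rw [one_mul, Qq]
  exact hsq

theorem s_of' {a : V} {c : R} (h : q0 a * c = 1) (hsq : ¬ IsSquare (q0 a)) : spinorSign (⇑Q) 1 (reflIso Q a (ne_of h)) = 1 := by
  rw [spinorSign_reflIso two_ne Q one_ne_zero, if_neg]
  rw [one_mul, Qq]
  exact hsq

theorem sq1 : IsSquare (1 : R) := ⟨1, rfl⟩
theorem nsq2 : ¬ IsSquare (2 : R) := by
  rintro ⟨r, hr⟩
  revert r
  decide

theorem spin_tt : spinorSign (⇑Q) 1 tt = -1 := by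
  have b1 : q0 B1 = 1 := by decide
  have b2 : q0 B2 = 1 := by decide
  have b3 : q0 B3 = 1 := by decide
  have b4 : q0 B4 = 2 := by decide
  rw [tt, map_mul, map_mul, map_mul, s_of hB1 (b1 ▸ sq1), s_of hB2 (b2 ▸ sq1), s_of hB3 (b3 ▸ sq1),
    s_of' hB4 (b4 ▸ nsq2)]
  decide

theorem spin_Y : spinorSign (⇑Q) 1 Y = 1 := by
  have b1 : q0 A1 = 1 := by decide
  have b2 : q0 A2 = 1 := by decide
  have b3 : q0 A3 = 2 := by decide
  have b4 : q0 A4 = 2 := by decide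
  rw [Y, map_mul, map_mul, map_mul, s_of hA1 (b1 ▸ sq1), s_of hA2 (b2 ▸ sq1), s_of' hA3 (b3 ▸ nsq2),
    s_of' hA4 (b4 ▸ nsq2)]
  decide

/-- the determinant -/
noncomputable def dt : Iso →* R where
  toFun g := ((g : Matrix.GeneralLinearGroup I R) : Matrix I I R).det
  map_one' := by simp
  map_mul' g h := by
    change ((((g : Matrix.GeneralLinearGroup I R) * (h : Matrix.GeneralLinearGroup I R) : Matrix.GeneralLinearGroup I R)) : Matrix I I R).det = _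
    rw [Units.val_mul, Matrix.det_mul]

theorem dt_refl (a : V) (ha : Q a ≠ 0) : dt (reflIso Q a ha) = -1 := det_reflIso Q a ha

theorem dt_tt : dt tt = 1 := by
  rw [tt, map_mul, map_mul, map_mul, dt_refl, dt_refl, dt_refl, dt_refl]
  decide

theorem dt_Y : dt Y = 1 := by
  rw [Y, map_mul, map_mul, map_mul, dt_refl, dt_refl, dt_refl, dt_refl]
  decide

theorem dt_neg : dt (negIso Q) = -1 := by
  change (-1 : Matrix I I R).det = -1
  rw [Matrix.det_neg, Matrix.det_one]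
  decide

/-- membership in `Ω` -/
theorem mem_om (g : Iso) : (g : Matrix.GeneralLinearGroup I R) ∈ Cfsg.Geo.omegaGL q0 ↔
    dt g = 1 ∧ spinorSign (⇑Q) 1 g = 1 := by
  rw [← Qq]
  exact of_mem_omegaGL two_ne Q hQ (by decide) g

end Cfsg.Agent.H948.EPX.Om7
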