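import Cfsg.Agent.H948.EPX.Om7B

/-!
# S5745, row `Ω₇(3)`: the centraliser of the element of order five acts on four points (helper948)
-/

set_option autoImplicit false
set_option linter.unusedSectionVars false
set_option maxRecDepth 100000

namespace Cfsg.Agent.H948.EPX.Om7

open QuadraticMap Matrix
open Cfsg.Agent.ClassicalGeometry.Reflection Cfsg.Agent.ClassicalGeometry.SpinorSign
open Cfsg.Agent.LieClassical.OrthCore Cfsg.Agent.LieClassical.OrthForms
open Cfsg.Agent.H932.Spinor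

theorem mk_split (u : Fin 3 → R) (c : Fin 4 → R) : mk u c = mk u 0 + mk 0 c := by
  rw [← mk_add, add_zero, zero_add]

/-- an element of `Ω` which is `± 1` on `U` and on `E` is trivial -/
theorem eq_one_of {z : Iso} (hd : dt z = 1) (hs : spinorSign (⇑Q) 1 z = 1) {η ε : R} (hη : η = 1 ∨ η = -1)
    (hε : ε = 1 ∨ ε = -1) (hu : ∀ u, ac z (mk u 0) = η • mk u 0) (hc : ∀ c, ac z (mk 0 c) = ε • mk 0 c) : z = 1 := by
  have hx : ∀ u c, ac z (mk u c) = η • mk u 0 + ε • mk 0 c := fun u c => by rw [mk_split, ac_add, hu, hc]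
  have ht : ∀ u c, ac tt (mk u c) = mk u 0 + (-1 : R) • mk 0 c := fun u c => by
    rw [t_mk, mk_split u (-c), neg_mk0]
  rcases hη with rfl | rfl <;> rcases hε with rfl | rfl
  · apply iso_ext
    intro x
    obtain ⟨u, c, rfl⟩ := mk_surj x
    rw [hx, ac_one, one_smul, one_smul, ← mk_split]
  · exfalso
    have h : z = tt := by
      apply iso_ext
      intro x
      obtain ⟨u, c, rfl⟩ := mk_surj x
      rw [hx, ht, one_smul]
    rw [h, spin_tt] at hs
    exact absurd hs (by decide)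
  · exfalso
    have h : z = negIso Q * tt := by
      apply iso_ext
      intro x
      obtain ⟨u, c, rfl⟩ := mk_surj x
      rw [hx, ac_mul, ac_negIso, ht, neg_add, neg_smul, neg_smul, neg_neg, one_smul, one_smul]
    rw [h, map_mul, dt_neg, dt_tt] at hd
    exact absurd hd (by decide)
  · exfalso
    have h : z = negIso Q := by
      apply iso_ext
      intro x
      obtain ⟨u, c, rfl⟩ := mk_surj x
      rw [hx, ac_negIso, mk_split u c, neg_add, neg_smul, neg_smul, one_smul, one_smul]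
    rw [h, dt_neg] at hd
    exact absurd hd (by decide)

/-! ### The four singular points of `U` -/

def P : Fin 4 → Fin 3 → R := ![![0, 1, 0], ![0, 0, 1], ![1, 1, 1], ![1, 2, 2]]

theorem sing_list (u : Fin 3 → R) (h : -u 0 ^ 2 + u 1 * u 2 = 0) (h0 : u ≠ 0) : ∃ l, u = P l ∨ u = -P l := by
  have key : ∀ a b c : R, -a ^ 2 + b * c = 0 → (![a, b, c] : Fin 3 → R) ≠ 0 →
      ∃ l, ![a, b, c] = P l ∨ ![a, b, c] = -P l := by decide
  have hu : u = ![u 0, u 1, u 2] := by
    funext i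
    fin_cases i <;> rfl
  have h1 := key (u 0) (u 1) (u 2) h (by rwa [← hu])
  rwa [← hu] at h1

theorem P_uniq : ∀ l m, (P l = P m ∨ P l = -P m) → l = m := by decide
theorem P_ne : ∀ l, P l ≠ 0 := by decide
theorem P_sing : ∀ l, -(P l) 0 ^ 2 + (P l) 1 * (P l) 2 = 0 := by decide

def pt (l : Fin 4) : V := mk (P l) 0

theorem mk_neg0 (u : Fin 3 → R) : mk (-u) 0 = -mk u 0 := by
  have := mk_neg u 0
  rwa [neg_zero] at this

theorem pt_uniq {l m : Fin 4} (h : pt l = pt m ∨ pt l = -pt m) : l = m := by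
  apply P_uniq
  rcases h with h | h
  · left; exact (mk_inj h).1
  · right
    rw [pt, pt, ← mk_neg0] at h
    exact (mk_inj h).1

theorem qE0 : qE 0 = 0 := by decide

theorem k_pt {k : Iso} (hk : k * Y = Y * k) (j : Fin 4) : ∃ l, ac k (pt j) = pt l ∨ ac k (pt j) = -pt l := by
  obtain ⟨u', h⟩ := k_U hk (P j)
  have h1 : -u' 0 ^ 2 + u' 1 * u' 2 = 0 := by
    have := q_ac k (mk (P j) 0)
    rw [h, q_mk, q_mk, qE0, P_sing, add_zero, add_zero] at this
    exact this
  have h2 : u' ≠ 0 := by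
    rintro rfl
    have h3 : ac k⁻¹ (ac k (mk (P j) 0)) = 0 := by rw [h, mk_zero, ac_zero]
    rw [ac_inv, ← mk_zero] at h3
    exact P_ne j (mk_inj h3).1
  obtain ⟨l, hl⟩ := sing_list u' h1 h2
  refine ⟨l, ?_⟩
  rw [pt, h, pt]
  rcases hl with rfl | rfl
  · left; rfl
  · right; rw [mk_neg0]

/-- the centraliser of `Y` in `Ω` -/
def CY : Subgroup Iso where
  carrier := {k | k * Y = Y * k ∧ dt k = 1 ∧ spinorSign (⇑Q) 1 k = 1}
  one_mem' := ⟨by rw [one_mul, mul_one], map_one _, map_one _⟩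
  mul_mem' {a b} ha hb := ⟨by rw [mul_assoc, hb.1, ← mul_assoc, ha.1, mul_assoc],
    by rw [map_mul, ha.2.1, hb.2.1, one_mul], by rw [map_mul, ha.2.2, hb.2.2, one_mul]⟩
  inv_mem' {a} ha := by
    refine ⟨by rw [inv_mul_eq_iff_eq_mul, ← mul_assoc, eq_mul_inv_iff_mul_eq, ha.1], ?_, by rw [map_inv, ha.2.2, inv_one]⟩
    have h : dt (a * a⁻¹) = 1 := by rw [mul_inv_cancel, map_one]
    rwa [map_mul, ha.2.1, one_mul] at h

theorem mem_CY {k : Iso} : k ∈ CY ↔ k * Y = Y * k ∧ dt k = 1 ∧ spinorSign (⇑Q) 1 k = 1 := Iff.rfl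

noncomputable def im (k : CY) (j : Fin 4) : Fin 4 := (k_pt k.2.1 j).choose

theorem im_spec (k : CY) (j : Fin 4) : ac k.1 (pt j) = pt (im k j) ∨ ac k.1 (pt j) = -pt (im k j) :=
  (k_pt k.2.1 j).choose_spec

theorem im_eq {k : CY} {j l : Fin 4} (h : ac k.1 (pt j) = pt l ∨ ac k.1 (pt j) = -pt l) : im k j = l := by
  apply pt_uniq
  rcases im_spec k j with h1 | h1 <;> rcases h with h2 | h2 <;> rw [h1] at h2
  · exact Or.inl h2
  · exact Or.inr h2
  · right
    rw [← h2, neg_neg]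
  · left
    exact neg_injective h2

theorem im_one (j : Fin 4) : im 1 j = j := by
  apply im_eq
  left
  change ac (1 : Iso) _ = _
  rw [ac_one]

theorem im_mul (k l : CY) (j : Fin 4) : im (k * l) j = im k (im l j) := by
  apply im_eq
  change ac ((k : Iso) * (l : Iso)) _ = _ ∨ ac ((k : Iso) * (l : Iso)) _ = _
  rw [ac_mul]
  rcases im_spec l j with h1 | h1 <;> rcases im_spec k (im l j) with h2 | h2 <;> rw [h1]
  · exact Or.inl h2
  · exact Or.inr h2
  · right
    rw [ac_neg, h2]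
  · left
    rw [ac_neg, h2, neg_neg]

noncomputable instance : MulAction CY (Fin 4) where
  smul := im
  one_smul := im_one
  mul_smul := im_mul

noncomputable def psi : CY →* Equiv.Perm (Fin 4) := MulAction.toPermHom CY (Fin 4)

theorem psi_apply (k : CY) (j : Fin 4) : psi k j = im k j := rfl

theorem fix4 {k : Iso} (h : ∀ l, ac k (pt l) = pt l ∨ ac k (pt l) = -pt l) :
    ∃ η : R, (η = 1 ∨ η = -1) ∧ ∀ u, ac k (mk u 0) = η • mk u 0 := by
  have h' : ∀ l, ∃ η : R, (η = 1 ∨ η = -1) ∧ ac k (pt l) = η • pt l := by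
    intro l
    rcases h l with h | h
    · exact ⟨1, Or.inl rfl, by rw [h, one_smul]⟩
    · exact ⟨-1, Or.inr rfl, by rw [h, neg_one_smul]⟩
  obtain ⟨e0, -, h0⟩ := h' 0
  obtain ⟨e1, -, h1⟩ := h' 1
  obtain ⟨e2, he, h2⟩ := h' 2
  obtain ⟨e3, -, h3⟩ := h' 3
  have q0 : pt 0 = dX := by decide
  have q1 : pt 1 = dZ := by decide
  have q2 : pt 2 = d1 + dX + dZ := by decide
  have q3 : pt 3 = d1 - dX - dZ := by decide
  have hneg : ∀ x y, ac k (x - y) = ac k x - ac k y := fun x y => by rw [sub_eq_add_neg, ac_add, ac_neg, ← sub_eq_add_neg]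
  rw [q0] at h0
  rw [q1] at h1
  rw [q2, ac_add, ac_add, h0, h1] at h2
  rw [q3, hneg, hneg, h0, h1] at h3
  -- compare
  have m1 : d1 = mk ![1, 0, 0] 0 := by decide
  have mX : dX = mk ![0, 1, 0] 0 := by decide
  have mZ : dZ = mk ![0, 0, 1] 0 := by decide
  have k1 : ac k d1 = e2 • (d1 + dX + dZ) - e0 • dX - e1 • dZ := by rw [← h2]; abel
  rw [k1] at h3
  have h4 : (e2 - e3) • d1 + (e2 - e0 - e0 + e3) • dX + (e2 - e1 - e1 + e3) • dZ = 0 := by
    have : (e2 - e3) • d1 + (e2 - e0 - e0 + e3) • dX + (e2 - e1 - e1 + e3) • dZ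
        = (e2 • (d1 + dX + dZ) - e0 • dX - e1 • dZ - e0 • dX - e1 • dZ) - e3 • (d1 - dX - dZ) := by
      module
    rw [this, h3, sub_self]
  have h5 : mk ![e2 - e3, e2 - e0 - e0 + e3, e2 - e1 - e1 + e3] 0 = mk 0 0 := by
    rw [mk_zero, mk_eq]
    simpa using h4
  have h6 := (mk_inj h5).1
  have a0 : e2 - e3 = 0 := congrFun h6 0
  have a1 : e2 - e0 - e0 + e3 = 0 := congrFun h6 1
  have a2 : e2 - e1 - e1 + e3 = 0 := congrFun h6 2
  have b3 : e3 = e2 := (sub_eq_zero.1 a0).symm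
  have b0 : e0 = e2 := by
    rw [b3] at a1
    linear_combination a1 + (e0 - e2) * Om7.h3
  have b1 : e1 = e2 := by
    rw [b3] at a2
    linear_combination a2 + (e1 - e2) * Om7.h3
  refine ⟨e2, he, fun u => ?_⟩
  rw [mk_eq]
  simp only [ac_add, ac_smul, h0, h1, k1, b0, b1, Pi.zero_apply, zero_smul, add_zero]
  module

theorem psi_eq_one (k : CY) : psi k = 1 ↔ (k : Iso) ∈ Subgroup.zpowers Y := by
  constructor
  · intro h
    obtain ⟨η, hη, hu⟩ := fix4 (k := k.1) (fun l => by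
      have := im_spec k l
      rwa [← psi_apply, h, Equiv.Perm.one_apply] at this)
    obtain ⟨i, ε, hε, hc⟩ := k_form k.2.1
    have h1 : (Y ^ i)⁻¹ * (k : Iso) = 1 := by
      refine eq_one_of ?_ ?_ hη hε (fun u => ?_) hc
      · have h2 : dt ((Y ^ i)⁻¹ * (Y ^ i)) = 1 := by rw [inv_mul_cancel, map_one]
        rw [map_mul, map_pow, dt_Y, one_pow, mul_one] at h2
        rw [map_mul, h2, k.2.2.1, one_mul]
      · rw [map_mul, map_inv, map_pow, spin_Y, one_pow, inv_one, one_mul, k.2.2.2]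
      · rw [ac_mul, hu, ac_smul, pow_inv_u]
    rw [inv_mul_eq_one] at h1
    rw [← h1]
    exact Subgroup.pow_mem _ (Subgroup.mem_zpowers Y) i
  · rintro ⟨i, hi⟩
    have hfix : ∀ u, ac k.1 (mk u 0) = mk u 0 := by
      intro u
      rw [← hi]
      change ac (Y ^ i) _ = _
      rcases i with i | i
      · rw [Int.ofNat_eq_natCast, zpow_natCast, pow_u]
      · rw [zpow_negSucc, pow_inv_u]
    ext j
    rw [psi_apply, Equiv.Perm.one_apply, im_eq (l := j)]
    left
    exact hfix _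

end Cfsg.Agent.H948.EPX.Om7
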