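import Cfsg.Agent.H948.EPX.Om7C

/-!
# S5745, row `Ω₇(3)`: stabilisers of subspaces and of decompositions (helper948)
-/

set_option autoImplicit false
set_option linter.unusedSectionVars false
set_option maxRecDepth 100000

namespace Cfsg.Agent.H948.EPX.Om7

open QuadraticMap Matrix
open Cfsg.Agent.ClassicalGeometry.Reflection Cfsg.Agent.ClassicalGeometry.SpinorSign
open Cfsg.Agent.LieClassical.OrthCore Cfsg.Agent.LieClassical.OrthForms
open Cfsg.Agent.H932.Spinor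

instance : Finite Iso := inferInstance

theorem stab_of (z : Iso) {p : V → Prop} (h : ∀ w, p w → p (ac z w)) (v : V) : p v ↔ p (ac z v) := by
  refine ⟨h v, fun hv => ?_⟩
  have h1 : ∀ (n : ℕ) (w : V), p w → p (ac (z ^ n) w) := by
    intro n
    induction n with
    | zero => intro w hw; rwa [pow_zero, ac_one]
    | succ n ih => intro w hw; rw [pow_succ, ac_mul]; exact ih _ (h _ hw)
  have h2 : z ^ (orderOf z - 1) * z = 1 := by
    rw [← pow_succ, Nat.sub_add_cancel (orderOf_pos z), pow_orderOf_eq_one]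
  have h3 := h1 (orderOf z - 1) _ hv
  rwa [← ac_mul, h2, ac_one] at h3

/-- the element of `Ω` attached to a nonsingular vector -/
theorem comm_refl {n : V} (hn : Q n ≠ 0) (hY : ac Y n = n) : reflIso Q n hn * Y = Y * reflIso Q n hn := by
  apply iso_ext
  intro x
  rw [ac_mul, ac_mul, ac_reflIso, ac_reflIso, sub_eq_add_neg, sub_eq_add_neg, ac_add, ac_neg, ac_smul, hY]
  congr 4
  nth_rewrite 1 [← hY]
  rw [polar_ac]

theorem comm_tt : tt * Y = Y * tt := by
  apply iso_ext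
  intro x
  obtain ⟨u, c, rfl⟩ := mk_surj x
  rw [ac_mul, ac_mul, Y_mk, t_mk, t_mk, Y_mk]
  congr 1
  funext i
  fin_cases i <;> simp [sh] <;> ring

theorem comm_neg (g : Iso) : negIso Q * g = g * negIso Q := by
  apply iso_ext
  intro x
  rw [ac_mul, ac_mul, ac_negIso, ac_negIso, ac_neg]

theorem zpow_fix {z : Iso} (h : z ∈ Subgroup.zpowers Y) (u : Fin 3 → R) : ac z (mk u 0) = mk u 0 := by
  obtain ⟨i, rfl⟩ := h
  change ac (Y ^ i) _ = _
  rcases i with i | i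
  · rw [Int.ofNat_eq_natCast, zpow_natCast, pow_u]
  · rw [zpow_negSucc, pow_inv_u]

theorem exists_z {n : V} (hn : Q n ≠ 0) (hY : ac Y n = n) : ∃ z : Iso, dt z = 1 ∧ spinorSign (⇑Q) 1 z = 1 ∧
    z * Y = Y * z ∧ z ∉ Subgroup.zpowers Y ∧ (z = negIso Q * reflIso Q n hn ∨ z = negIso Q * reflIso Q n hn * tt) := by
  set b := negIso Q * reflIso Q n hn with hb
  have hbY : b * Y = Y * b := by
    rw [hb, mul_assoc, comm_refl hn hY, ← mul_assoc, comm_neg, mul_assoc]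
  have hbd : dt b = 1 := by
    rw [hb, map_mul, dt_neg, dt_refl]
    decide
  have hact : ∀ z : Iso, (z = b ∨ z = b * tt) → ∀ u, ac z (mk u 0) = -ac (reflIso Q n hn) (mk u 0) := by
    rintro z (rfl | rfl) u
    · rw [hb, ac_mul, ac_negIso]
    · rw [ac_mul, t_mk, neg_zero, hb, ac_mul, ac_negIso]
  have hnot : ∀ z : Iso, (z = b ∨ z = b * tt) → z ∉ Subgroup.zpowers Y := by
    intro z hz hmem
    have key : ∀ u, ∃ s : R, (2 : R) • mk u 0 = s • n := by
      intro u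
      refine ⟨(Q n)⁻¹ * polar (⇑Q) n (mk u 0), ?_⟩
      have h1 := hact z hz u
      rw [zpow_fix hmem, ac_reflIso, neg_sub] at h1
      rw [two_smul]
      nth_rewrite 1 [h1]
      abel
    obtain ⟨u1, h1⟩ : ∃ u, d1 = mk u 0 := ⟨![1, 0, 0], by decide⟩
    obtain ⟨s, hs⟩ := key ![1, 0, 0]
    obtain ⟨s', hs'⟩ := key ![0, 1, 0]
    have h2 : mk (s' • (2 : R) • ![1, 0, 0]) 0 = mk (s • (2 : R) • ![0, 1, 0]) 0 := by
      have e1 : mk (s' • (2 : R) • ![1, 0, 0]) 0 = s' • (2 : R) • mk ![1, 0, 0] 0 := by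
        rw [← mk_smul, ← mk_smul, smul_zero, smul_zero]
      have e2 : mk (s • (2 : R) • ![0, 1, 0]) 0 = s • (2 : R) • mk ![0, 1, 0] 0 := by
        rw [← mk_smul, ← mk_smul, smul_zero, smul_zero]
      rw [e1, e2, hs, hs', smul_comm]
    have h4 := congrFun (mk_inj h2).1 1
    have h5 : s = 0 := by
      simp at h4
      rcases h4 with h4 | h4
      · exact h4
      · exact absurd h4 two_ne
    rw [h5, zero_smul] at hs
    have h6 : mk ((2 : R) • ![1, 0, 0]) 0 = mk 0 0 := by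
      rw [mk_zero, ← hs, ← mk_smul, smul_zero]
    have h7 := congrFun (mk_inj h6).1 0
    simp at h7
    exact two_ne h7
  rcases Int.units_eq_one_or (spinorSign (⇑Q) 1 b) with h | h
  · exact ⟨b, hbd, h, hbY, hnot b (Or.inl rfl), Or.inl rfl⟩
  · refine ⟨b * tt, ?_, ?_, ?_, hnot _ (Or.inr rfl), Or.inr rfl⟩
    · rw [map_mul, hbd, dt_tt, one_mul]
    · rw [map_mul, h, spin_tt]
      decide
    · rw [mul_assoc, comm_tt, ← mul_assoc, hbY, mul_assoc]

/-! ### Subspaces -/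

def qU (a b c : R) : R := -a ^ 2 + b * c

/-- a suitable vector for an additive set of vectors of `U` -/
theorem exists_n (X : (Fin 3 → R) → Prop) (hadd : ∀ x y, X x → X y → X (x + y)) :
    ∃ a : Fin 3 → R, -a 0 ^ 2 + a 1 * a 2 ≠ 0 ∧ (X a ∨ ∀ x, X x → a 0 * x 0 + a 1 * x 2 + a 2 * x 1 = 0) := by
  by_cases h : ∃ a, X a ∧ -a 0 ^ 2 + a 1 * a 2 ≠ 0
  · obtain ⟨a, h1, h2⟩ := h
    exact ⟨a, h2, Or.inl h1⟩
  · push Not at h
    by_cases hx : ∃ x, X x ∧ x ≠ 0
    · obtain ⟨x, h1, h2⟩ := hx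
      have h3 := h x h1
      have key1 : ∀ x0 x1 x2 : R, -x0 ^ 2 + x1 * x2 = 0 → (x0 ≠ 0 ∨ x1 ≠ 0 ∨ x2 ≠ 0) →
          ∃ a0 a1 a2 : R, -a0 ^ 2 + a1 * a2 ≠ 0 ∧ a0 * x0 + a1 * x2 + a2 * x1 = 0 := by decide
      have key2 : ∀ x0 x1 x2 : R, -x0 ^ 2 + x1 * x2 = 0 → (x0 ≠ 0 ∨ x1 ≠ 0 ∨ x2 ≠ 0) →
          ∀ y0 y1 y2 : R, -y0 ^ 2 + y1 * y2 = 0 → -(x0 + y0) ^ 2 + (x1 + y1) * (x2 + y2) = 0 →
          ∃ s : R, y0 = s * x0 ∧ y1 = s * x1 ∧ y2 = s * x2 := by decide
      have hne : x 0 ≠ 0 ∨ x 1 ≠ 0 ∨ x 2 ≠ 0 := by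
        by_contra hcon
        push Not at hcon
        apply h2
        funext i
        fin_cases i
        · exact hcon.1
        · exact hcon.2.1
        · exact hcon.2.2
      obtain ⟨a0, a1, a2, h4, h5⟩ := key1 _ _ _ h3 hne
      refine ⟨![a0, a1, a2], h4, Or.inr fun y hy => ?_⟩
      obtain ⟨s, e0, e1, e2⟩ := key2 _ _ _ h3 hne _ _ _ (h y hy) (h _ (hadd x y h1 hy))
      change a0 * y 0 + a1 * y 2 + a2 * y 1 = 0
      rw [e0, e1, e2]
      linear_combination s * h5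
    · push Not at hx
      refine ⟨![1, 0, 0], by decide, Or.inr fun x hxx => ?_⟩
      rw [hx x hxx]
      simp

theorem pol_zero {n : V} (hn : Q n ≠ 0) {x : V} (h : polar q0 n x = 0) : ac (reflIso Q n hn) x = x := by
  rw [ac_reflIso, Qq, h, mul_zero, zero_smul, sub_zero]

/-- **Stabilisers of subspaces.** -/
theorem subspace (W : Submodule R V) (hW : ∀ w ∈ W, ac Y w ∈ W) : ∃ z : Iso, dt z = 1 ∧ spinorSign (⇑Q) 1 z = 1 ∧
    z * Y = Y * z ∧ z ∉ Subgroup.zpowers Y ∧ ∀ v, v ∈ W ↔ ac z v ∈ W := by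
  obtain ⟨a, ha, hX⟩ := exists_n (fun u => mk u 0 ∈ W) (fun x y hx hy => by
    have := W.add_mem hx hy
    rwa [← mk_add, add_zero] at this)
  have hn : Q (mk a 0) ≠ 0 := by
    rw [Qq, q_mk, qE0, add_zero]
    exact ha
  obtain ⟨z, h1, h2, h3, h4, h5⟩ := exists_z hn (Y_u a)
  have hsplit : ∀ u c, mk u c ∈ W → mk u 0 ∈ W := by
    intro u c h
    have e := nm u c
    have : mk (-u) 0 ∈ W := by
      rw [← e]
      have w1 := hW _ h
      have w2 := hW _ w1
      have w3 := hW _ w2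
      have w4 := hW _ w3
      exact W.add_mem (W.add_mem (W.add_mem (W.add_mem h w1) w2) w3) w4
    rw [mk_neg0] at this
    exact (Submodule.neg_mem_iff W).1 this
  have hr : ∀ w ∈ W, ac (reflIso Q (mk a 0) hn) w ∈ W := by
    intro w hw
    rcases hX with hX | hX
    · rw [ac_reflIso]
      exact W.sub_mem hw (W.smul_mem _ hX)
    · obtain ⟨u, c, rfl⟩ := mk_surj w
      rw [pol_zero hn]
      · exact hw
      · rw [polar_mk, hX u (hsplit u c hw)]
        simp [bE]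
  have ht : ∀ w ∈ W, ac tt w ∈ W := by
    intro w hw
    obtain ⟨u, c, rfl⟩ := mk_surj w
    have h6 := hsplit u c hw
    have h7 : ac tt (mk u c) = mk u 0 + mk u 0 - mk u c := by
      rw [t_mk, mk_split u (-c), mk_split u c, neg_mk0, neg_one_smul]
      abel
    rw [h7]
    exact W.sub_mem (W.add_mem h6 h6) hw
  refine ⟨z, h1, h2, h3, h4, fun v => stab_of z (p := fun v => v ∈ W) (fun w hw => ?_) v⟩
  have hng : ∀ w ∈ W, ac (negIso Q) w ∈ W := fun w hw => by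
    rw [ac_negIso]
    exact W.neg_mem hw
  rcases h5 with rfl | rfl
  · rw [ac_mul]
    exact hng _ (hr _ hw)
  · rw [ac_mul, ac_mul]
    exact hng _ (hr _ (ht _ hw))

end Cfsg.Agent.H948.EPX.Om7
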