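import Cfsg.Agent.H948.EPX.Om7D

/-!
# S5745, row `Ω₇(3)`: stabilisers of decompositions into lines (helper948)
-/

set_option autoImplicit false
set_option linter.unusedSectionVars false
set_option maxRecDepth 100000

namespace Cfsg.Agent.H948.EPX.Om7

open QuadraticMap Matrix
open Cfsg.Agent.ClassicalGeometry.Reflection Cfsg.Agent.ClassicalGeometry.SpinorSign
open Cfsg.Agent.LieClassical.OrthCore Cfsg.Agent.LieClassical.OrthForms
open Cfsg.Agent.H932.Spinor

theorem Y5_ac (x : V) : ac Y (ac Y (ac Y (ac Y (ac Y x)))) = x := by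
  rw [← ac_mul, ← ac_mul, ← ac_mul, ← ac_mul]
  have h : Y * Y * Y * Y * Y = Y ^ 5 := by simp only [pow_succ, pow_zero, one_mul]
  rw [h, Y5, ac_one]

/-- a line fixed by `Y` is fixed pointwise -/
theorem line_fixed {L : Submodule R V} (h1 : Module.finrank R L = 1) (hL : ∀ w ∈ L, ac Y w ∈ L) :
    ∀ w ∈ L, ac Y w = w := by
  obtain ⟨⟨v, hv⟩, hv0, hgen⟩ := finrank_eq_one_iff'.1 h1
  obtain ⟨s, hs⟩ := hgen ⟨ac Y v, hL v hv⟩
  have hs' : ac Y v = s • v := (congrArg Subtype.val hs).symm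
  have hvne : v ≠ 0 := fun h => hv0 (Subtype.ext h)
  have h5 := Y5_ac v
  simp only [hs', ac_smul, smul_smul] at h5
  have h6 : s * s * s * s * s - 1 = 0 := by
    have h7 : (s * s * s * s * s - 1) • v = 0 := by
      rw [sub_smul, one_smul, sub_eq_zero]
      nth_rewrite 2 [← h5]
      congr 1
    exact (smul_eq_zero.1 h7).resolve_right hvne
  have key : ∀ s : R, s * s * s * s * s - 1 = 0 → s = 1 := by decide
  have h7 : s = 1 := key s h6
  intro w hw
  obtain ⟨t, ht⟩ := hgen ⟨w, hw⟩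
  have ht' : w = t • v := (congrArg Subtype.val ht).symm
  rw [ht', ac_smul, hs', h7, one_smul]

/-- **Stabilisers of decompositions.** -/
theorem decomp {D : Fin 7 → Submodule R V} (hD : Cfsg.Geo.IsOrthogonalMDecomposition q0 1 D)
    (hY : (Y : Matrix.GeneralLinearGroup I R) ∈ Cfsg.Geo.decompositionStabilizer D) :
    ∃ z : Iso, dt z = 1 ∧ spinorSign (⇑Q) 1 z = 1 ∧ z * Y = Y * z ∧ z ∉ Subgroup.zpowers Y ∧
      (z : Matrix.GeneralLinearGroup I R) ∈ Cfsg.Geo.decompositionStabilizer D := by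
  classical
  obtain ⟨⟨⟨-, -, hfr, hind, -⟩, hnd, hort⟩, hiso⟩ := hD
  obtain ⟨σ, hσ⟩ := hY
  have hne : ∀ i, D i ≠ ⊥ := fun i h => by
    have := hfr i
    rw [h, finrank_bot] at this
    exact absurd this (by norm_num)
  have hinj : Function.Injective D := hind.injective hne
  have hm : ∀ i, ∀ w ∈ D i, ac Y w ∈ D (σ i) := by
    intro i w hw
    rw [← hσ i]
    exact ⟨w, hw, by rw [Matrix.toLin'_apply]⟩
  have hle : ∀ i, D i ≤ D (σ (σ (σ (σ (σ i))))) := by
    intro i w hw
    have := hm _ _ (hm _ _ (hm _ _ (hm _ _ (hm _ _ hw))))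
    rwa [Y5_ac] at this
  have h5 : σ ^ 5 = 1 := by
    ext i
    have h : D i = D (σ (σ (σ (σ (σ i))))) :=
      Submodule.eq_of_le_of_finrank_eq (hle i) (by rw [hfr, hfr])
    have h' := (hinj h).symm
    have e : (σ ^ 5) i = σ (σ (σ (σ (σ i)))) := by
      simp only [pow_succ, pow_zero, one_mul, Equiv.Perm.mul_apply]
    rw [e, h', Equiv.Perm.one_apply]
  obtain ⟨i, j, hij, hi, hj⟩ : ∃ i j : Fin 7, i ≠ j ∧ σ i = i ∧ σ j = j := by
    have : Fact (Nat.Prime 5) := ⟨by norm_num⟩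
    let f : Function.End (Fin 7) := ⇑σ
    have hf : f ^ 5 ^ 1 = 1 := by
      rw [pow_one]
      funext x
      have e : (f ^ 5) x = (σ ^ 5) x := by
        simp only [pow_succ, pow_zero, one_mul, Equiv.Perm.mul_apply]
        rfl
      rw [e, h5]
      rfl
    have h6 := Equiv.Perm.card_fixedPoints_modEq hf
    rw [Fintype.card_fin] at h6
    have h7 : 1 < Fintype.card f.fixedPoints := by
      by_contra hcon
      have h8 : Fintype.card f.fixedPoints = 0 ∨ Fintype.card f.fixedPoints = 1 := by omega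
      rcases h8 with h8 | h8 <;> rw [h8] at h6 <;> exact absurd h6 (by decide)
    obtain ⟨a, b, hab⟩ := Fintype.exists_pair_of_one_lt_card h7
    exact ⟨a.1, b.1, fun h => hab (Subtype.ext h), a.2, b.2⟩
  have hfi : ∀ w ∈ D i, ac Y w = w := line_fixed (hfr i) (fun w hw => by
    have := hm i w hw
    rwa [hi] at this)
  have hfj : ∀ w ∈ D j, ac Y w = w := line_fixed (hfr j) (fun w hw => by
    have := hm j w hw
    rwa [hj] at this)
  obtain ⟨e, he⟩ := hiso i j
  obtain ⟨⟨v, hv⟩, hv0, hgen⟩ := finrank_eq_one_iff'.1 (hfr i)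
  have hvne : v ≠ 0 := fun h => hv0 (Subtype.ext h)
  have hqv : q0 v ≠ 0 := by
    intro h0
    obtain ⟨x, hx, hxv⟩ := (hnd i v hv hvne).2
    obtain ⟨s, hs⟩ := hgen ⟨x, hx⟩
    have hs' : x = s • v := (congrArg Subtype.val hs).symm
    apply hxv
    change polar q0 v x = 0
    rw [hs', ← Qq, QuadraticMap.polar_smul_right, Cfsg.Agent.ClassicalGeometry.Reflection.polar_self', Qq, h0]
    simp
  set v' : V := ((e ⟨v, hv⟩ : D j) : V) with hv'
  have hv'j : v' ∈ D j := (e ⟨v, hv⟩).2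
  have hqq : q0 v' = q0 v := he ⟨v, hv⟩
  have hqv' : q0 v' ≠ 0 := by rw [hqq]; exact hqv
  have hn : Q v ≠ 0 := by rw [Qq]; exact hqv
  have hn' : Q v' ≠ 0 := by rw [Qq]; exact hqv'
  have hvv' : polar q0 v v' = 0 := hort i j hij v hv v' hv'j
  -- reflections
  have hrefl : ∀ (l : Fin 7) (n : V) (hn : Q n ≠ 0), n ∈ D l → ∀ k, ∀ w ∈ D k, ac (reflIso Q n hn) w ∈ D k := by
    intro l n hn hnl k w hw
    by_cases hkl : l = k
    · subst hkl
      rw [ac_reflIso]
      exact (D l).sub_mem hw ((D l).smul_mem _ hnl)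
    · rw [pol_zero hn (hort l k hkl n hnl w hw)]
      exact hw
  refine ⟨reflIso Q v hn * reflIso Q v' hn', ?_, ?_, ?_, ?_, 1, ?_⟩
  · rw [map_mul, dt_refl, dt_refl]
    decide
  · rw [map_mul, spinorSign_reflIso two_ne Q one_ne_zero, spinorSign_reflIso two_ne Q one_ne_zero]
    have e1 : Q v' = Q v := by rw [Qq]; exact hqq
    rw [e1]
    split_ifs <;> decide
  · rw [mul_assoc, comm_refl hn' (hfj _ hv'j), ← mul_assoc, comm_refl hn (hfi _ hv), mul_assoc]
  · intro hmem
    obtain ⟨u, hu⟩ := mem_U_of (hfi v hv)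
    have h1 := zpow_fix hmem u
    rw [← hu, ac_mul, pol_zero hn' (by rw [← Qq, QuadraticMap.polar_comm, Qq]; exact hvv'), ac_reflIso, Cfsg.Agent.ClassicalGeometry.Reflection.polar_self',
      mul_comm 2, ← mul_assoc, inv_mul_cancel₀ hn, one_mul, two_smul] at h1
    have h2 : (2 : R) • v = 0 := by
      rw [two_smul]
      have h3 : v - (v + v) = -v := by abel
      rw [h3] at h1
      nth_rewrite 1 [← h1]
      abel
    rcases smul_eq_zero.1 h2 with h3 | h3
    · exact two_ne h3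
    · exact hvne h3
  · intro k
    rw [Equiv.Perm.one_apply]
    have hst : ∀ w, w ∈ D k ↔ ac (reflIso Q v hn * reflIso Q v' hn') w ∈ D k := by
      apply stab_of (p := fun w => w ∈ D k)
      intro w hw
      rw [ac_mul]
      exact hrefl i v hn hv k _ (hrefl j v' hn' hv'j k w hw)
    apply le_antisymm
    · rintro _ ⟨w, hw, rfl⟩
      rw [Matrix.toLin'_apply]
      exact (hst w).1 hw
    · intro w hw
      refine ⟨ac (reflIso Q v hn * reflIso Q v' hn')⁻¹ w, ?_, ?_⟩
      · change _ ∈ D k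
        rw [hst, ← ac_mul, mul_inv_cancel, ac_one]
        exact hw
      · rw [Matrix.toLin'_apply]
        change ac _ (ac _ w) = w
        rw [← ac_mul, mul_inv_cancel, ac_one]

end Cfsg.Agent.H948.EPX.Om7
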